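import Mathlib
import Cfsg.Agent.Lib.Helper81.CS3.NGDefs
import Cfsg.Agent.Lib.Helper71.CS3.Basics

/-!
# CS3 (= S4284), part NG, package [TWO]

If there is no good element then `m` has at most one prime divisor.
-/

set_option autoImplicit false

namespace Cfsg.Agent.Lib.Helper83.CS3

open Cfsg.Agent.Lib.Helper81.CS3

universe u

section general

variable {G : Type u} [Group G]

theorem mem_cent_iff (g w : G) : g ∈ Subgroup.centralizer ({w} : Set G) ↔ Commute g w := by
  rw [Subgroup.mem_centralizer_iff]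
  constructor
  · intro h
    exact (h w rfl).symm
  · intro h x hx
    rw [Set.mem_singleton_iff.1 hx]
    exact h.eq.symm

theorem cent_le_of_idx [Finite G] {v w : G} (h : ∀ g : G, Commute g w → Commute g v)
    (hidx : idx v = idx w) : ∀ g : G, Commute g v → Commute g w := by
  have hle : Subgroup.centralizer ({w} : Set G) ≤ Subgroup.centralizer ({v} : Set G) := by
    intro g hg
    rw [mem_cent_iff] at hg ⊢
    exact h g hg
  have h1 := Subgroup.relIndex_mul_index hle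
  have h2 : (Subgroup.centralizer ({v} : Set G)).index ≠ 0 := Subgroup.index_ne_zero_of_finite
  have h3 : (Subgroup.centralizer ({w} : Set G)).relIndex (Subgroup.centralizer ({v} : Set G))
      = 1 := by
    have h4 : (Subgroup.centralizer ({w} : Set G)).relIndex (Subgroup.centralizer ({v} : Set G))
        * (Subgroup.centralizer ({v} : Set G)).index
        = 1 * (Subgroup.centralizer ({v} : Set G)).index := by
      rw [h1, one_mul]
      exact hidx.symm
    exact Nat.eq_of_mul_eq_mul_right (Nat.pos_of_ne_zero h2) h4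
  have h5 := Subgroup.relIndex_eq_one.1 h3
  intro g hg
  rw [← mem_cent_iff] at hg ⊢
  exact h5 hg

theorem cent_eq_of_abc [Finite G] {v w : G} (hab : AbC w) (hv : Commute v w)
    (hidx : idx v = idx w) (g : G) : Commute g v ↔ Commute g w :=
  ⟨cent_le_of_idx (fun g hg => hab g v hg hv) hidx g, fun hg => hab g v hg hv⟩

theorem card_relIndex {H K : Subgroup G} (h : H ≤ K) :
    Nat.card H * H.relIndex K = Nat.card K := by
  have h1 := Subgroup.card_mul_index (H.subgroupOf K)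
  rw [Nat.card_congr (Subgroup.subgroupOfEquivOfLe h).toEquiv] at h1
  exact h1

theorem sylow_card_of_eq [Finite G] {s e c : ℕ} [Fact s.Prime] (S : Sylow s G)
    (h : Nat.card G = s ^ e * c) (hc : ¬ s ∣ c) : Nat.card S = s ^ e := by
  have hs : s.Prime := Fact.out
  have hc0 : c ≠ 0 := by
    rintro rfl
    exact hc (dvd_zero s)
  rw [Sylow.card_eq_multiplicity, h, Nat.factorization_mul (pow_ne_zero e hs.ne_zero) hc0,
    Finsupp.add_apply, Nat.Prime.factorization_pow hs, Finsupp.single_eq_same,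
    Nat.factorization_eq_zero_of_not_dvd hc, add_zero]

theorem spow_of_mem_sylow {s : ℕ} [Fact s.Prime] (S : Sylow s G) {g : G}
    (hg : g ∈ (S : Subgroup G)) : ∃ k : ℕ, orderOf g = s ^ k := by
  obtain ⟨k, hk⟩ := S.isPGroup' ⟨g, hg⟩
  have h1 : g ^ (s ^ k) = 1 := by
    have := congrArg Subtype.val hk
    simpa using this
  obtain ⟨j, -, hj⟩ := (Nat.dvd_prime_pow Fact.out).1 (orderOf_dvd_of_pow_eq_one h1)
  exact ⟨j, hj⟩

theorem sylow_le_not_dvd [Finite G] {s : ℕ} [Fact s.Prime] (S : Sylow s G) {K : Subgroup G}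
    (h : (S : Subgroup G) ≤ K) : ¬ s ∣ K.index := fun hd =>
  S.not_dvd_index (dvd_trans hd (Subgroup.index_dvd_of_le h))

theorem order_conj (g u : G) : orderOf (g * u * g⁻¹) = orderOf u := by
  have h : SemiconjBy g u (g * u * g⁻¹) := by
    unfold SemiconjBy
    group
  exact (SemiconjBy.orderOf_eq g h).symm

theorem pm_conj {m s : ℕ} {u : G} (h : PM m s u) (g : G) : PM m s (g * u * g⁻¹) := by
  obtain ⟨h1, h2, ⟨k, hk⟩, h4⟩ := h
  refine ⟨h1, h2, ⟨k, by rw [order_conj, hk]⟩, ?_⟩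
  intro hz
  apply h4
  have h5 := (inferInstance : (Subgroup.center G).Normal).conj_mem _ hz g⁻¹
  have h6 : g⁻¹ * (g * u * g⁻¹) * g⁻¹⁻¹ = u := by group
  rw [h6] at h5
  exact h5

/-- (1): with two primes dividing `m`, every centralizer of index `mn` is abelian. -/
theorem abc_of_idx [Finite G] {m n : ℕ} (hyp : Hyp G m n) (hNG : NG G m)
    (hSyl : PkgSyl.{u}) (hStr : PkgStr.{u}) (hAb : PkgAb.{u})
    {s r : ℕ} (hs : s.Prime) (hr : r.Prime) (hsr : s ≠ r) (hsm : s ∣ m) (hrm : r ∣ m)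
    {w : G} (hw : idx w = m * n) : AbC w := by
  obtain ⟨b, hbPM, hbw⟩ := hSyl m n hyp s hs hsm w
  obtain ⟨b2, hb2PM, hb2b⟩ := hSyl m n hyp r hr hrm b
  have hb2idx := (hStr m n hyp hNG r b2 hb2PM).1
  have hnII : ¬ TypeII m n s b := by
    intro hII
    obtain ⟨k, hk⟩ := hb2PM.2.2.1
    refine hII b2 hb2b ?_ hb2idx
    rw [hk]
    exact Nat.Coprime.pow_left k ((Nat.coprime_primes hr hs).2 hsr.symm)
  have habc : AbC b := hAb m n hyp hNG s b hbPM hnII
  have hbidx := (hStr m n hyp hNG s b hbPM).1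
  have hle : ∀ g : G, Commute g w → Commute g b :=
    cent_le_of_idx (fun g hg => habc g w hg hbw.symm) (by rw [hw, hbidx])
  intro x y hx hy
  exact habc x y (hle x hx) (hle y hy)

end general

/-- The standing facts used in the proof of [TWO]. -/
structure Env (G : Type u) [Group G] (m n : ℕ) : Prop where
  hyp : Hyp G m n
  syl : ∀ s : ℕ, s.Prime → s ∣ m → ∀ x : G, ∃ b : G, PM m s b ∧ Commute b x
  idxpm : ∀ (s : ℕ) (b : G), PM m s b → idx b = m * n
  sb : ∀ (s : ℕ) (b : G), PM m s b → ∃ (Sb : Subgroup G) (j c : ℕ),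
      (∀ u : G, u ∈ Sb ↔ (Commute u b ∧ ∃ k : ℕ, orderOf u = s ^ k)) ∧
      Nat.card Sb = s ^ j ∧ Nat.card G = s ^ (j + 1) * c ∧ ¬ s ∣ c
  abc : ∀ w : G, idx w = m * n → AbC w
  stepA : ∀ w : G, idx w = m * n → ∃ x : G, Commute x w ∧ idx x = m
  stepB : ∀ w : G, idx w = m * n → ∀ x g : G, Commute x w → idx x = m →
      Commute (g * x * g⁻¹) w

section main

variable {G : Type u} [Group G] [Finite G]

/-- (2): an element commuting with `b` and with some `g ∈ S ∖ S_b` is central. -/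
theorem central_of_comm {m n : ℕ} (E : Env G m n) {s : ℕ} [Fact s.Prime] (hsm : s ∣ m)
    {b : G} (hb : PM m s b) {Sb : Subgroup G} {j c : ℕ}
    (hSb : ∀ u : G, u ∈ Sb ↔ (Commute u b ∧ ∃ k : ℕ, orderOf u = s ^ k))
    (hj : Nat.card Sb = s ^ j) (hG : Nat.card G = s ^ (j + 1) * c) (hc : ¬ s ∣ c)
    (S : Sylow s G) (hSbS : Sb ≤ S) {g : G} (hgS : g ∈ (S : Subgroup G)) (hgSb : g ∉ Sb)
    {u : G} (hub : Commute u b) (hug : Commute u g) : u ∈ Subgroup.center G := by
  have hs : s.Prime := Fact.out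
  have hgpow := spow_of_mem_sylow S hgS
  have hgb : ¬ Commute g b := fun h => hgSb ((hSb g).2 ⟨h, hgpow⟩)
  have hgZ : g ∉ Subgroup.center G := by
    intro hz
    exact hgb (Subgroup.mem_center_iff.1 hz b).symm
  have hgPM : PM m s g := ⟨hs, hsm, hgpow, hgZ⟩
  have hidxb := E.idxpm s b hb
  have hidxg := E.idxpm s g hgPM
  have habcb := E.abc b hidxb
  have habcg := E.abc g hidxg
  rcases Cfsg.Agent.Lib.Helper71.CS3.idx_cases E.hyp u with h1 | h1 | h1
  · exact (Cfsg.Agent.Lib.Helper71.CS3.idx_eq_one_iff u).1 h1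
  · exfalso
    have hSbu : Sb ≤ Subgroup.centralizer ({u} : Set G) := by
      intro y hy
      rw [mem_cent_iff]
      exact habcb y u ((hSb y).1 hy).1 hub
    have hcardS : Nat.card S = s * Nat.card Sb := by
      rw [sylow_card_of_eq S hG hc, hj, pow_succ]
      ring
    have hL1 : Sb ≤ (S : Subgroup G) ⊓ Subgroup.centralizer ({u} : Set G) := le_inf hSbS hSbu
    have hL2 : (S : Subgroup G) ⊓ Subgroup.centralizer ({u} : Set G) ≤ S := inf_le_left
    have hgL : g ∈ (S : Subgroup G) ⊓ Subgroup.centralizer ({u} : Set G) :=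
      ⟨hgS, (mem_cent_iff g u).2 hug.symm⟩
    obtain ⟨t, ht⟩ := Subgroup.card_dvd_of_le hL1
    have h3 := Subgroup.card_dvd_of_le hL2
    rw [ht, hcardS] at h3
    have hpos : 0 < Nat.card Sb := Nat.card_pos
    have ht' : t ∣ s := by
      have h4 : Nat.card Sb * t ∣ Nat.card Sb * s := by
        rw [mul_comm _ s]
        exact h3
      exact (Nat.mul_dvd_mul_iff_left hpos).1 h4
    rcases (Nat.dvd_prime hs).1 ht' with rfl | rfl
    · rw [mul_one] at ht
      have h5 : Sb = (S : Subgroup G) ⊓ Subgroup.centralizer ({u} : Set G) :=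
        Subgroup.eq_of_le_of_card_ge hL1 (le_of_eq ht)
      rw [← h5] at hgL
      exact hgSb hgL
    · have hLS : (S : Subgroup G) ⊓ Subgroup.centralizer ({u} : Set G) = S :=
        Subgroup.eq_of_le_of_card_ge hL2 (by rw [ht, hcardS, mul_comm])
      have hSu : (S : Subgroup G) ≤ Subgroup.centralizer ({u} : Set G) := by
        rw [← hLS]
        exact inf_le_right
      apply sylow_le_not_dvd S hSu
      rw [h1]
      exact hsm
  · exfalso
    have e1 := cent_eq_of_abc habcb hub (h1.trans hidxb.symm)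
    have e2 := cent_eq_of_abc habcg hug (h1.trans hidxg.symm)
    exact hgb ((e1 g).1 ((e2 g).2 (Commute.refl g)))

/-- (3), (4): `S_b ∩ Z(G)` has index `s` in `S_b`. -/
theorem card_sb {m n : ℕ} (E : Env G m n) {s : ℕ} [Fact s.Prime] (hsm : s ∣ m)
    {b : G} (hb : PM m s b) {Sb : Subgroup G} {j c : ℕ}
    (hSb : ∀ u : G, u ∈ Sb ↔ (Commute u b ∧ ∃ k : ℕ, orderOf u = s ^ k))
    (hj : Nat.card Sb = s ^ j) (hG : Nat.card G = s ^ (j + 1) * c) (hc : ¬ s ∣ c) :
    Nat.card Sb = s * Nat.card ↥(Sb ⊓ Subgroup.center G) := by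
  have hs : s.Prime := Fact.out
  obtain ⟨S, hSbS⟩ := IsPGroup.exists_le_sylow (p := s) (P := Sb) (IsPGroup.of_card hj)
  have hcardS : Nat.card S = s * Nat.card Sb := by
    rw [sylow_card_of_eq S hG hc, hj, pow_succ]
    ring
  have hpos : 0 < Nat.card Sb := Nat.card_pos
  obtain ⟨g, hgS, hgSb⟩ : ∃ g, g ∈ (S : Subgroup G) ∧ g ∉ Sb := by
    by_contra hcon
    push Not at hcon
    have h0 : (S : Subgroup G) ≤ Sb := hcon
    have h1 := Subgroup.card_le_of_le h0
    rw [hcardS] at h1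
    have h2 := hs.two_le
    nlinarith
  have hgpow := spow_of_mem_sylow S hgS
  have hgb : ¬ Commute g b := fun h => hgSb ((hSb g).2 ⟨h, hgpow⟩)
  have hgZ : g ∉ Subgroup.center G := by
    intro hz
    exact hgb (Subgroup.mem_center_iff.1 hz b).symm
  have hgPM : PM m s g := ⟨hs, hsm, hgpow, hgZ⟩
  have hidxb := E.idxpm s b hb
  obtain ⟨x, hxb, hxidx⟩ := E.stepA b hidxb
  have hxB := E.stepB b hidxb x
  have hm1 : 1 < m := E.hyp.2.1
  have hxZ : x ∉ Subgroup.center G := by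
    intro hz
    have h1 : idx x = 1 := (Cfsg.Agent.Lib.Helper71.CS3.idx_eq_one_iff x).2 hz
    omega
  obtain ⟨Sg, j', c', hSg, hj', hG', hc'⟩ := E.sb s g hgPM
  obtain ⟨S', hSgS'⟩ := IsPGroup.exists_le_sylow (p := s) (P := Sg) (IsPGroup.of_card hj')
  obtain ⟨v, hv⟩ := MulAction.exists_smul_eq G S' S
  have hconjS : ∀ y : G, y ∈ (S' : Subgroup G) → v * y * v⁻¹ ∈ (S : Subgroup G) := by
    intro y hy
    rw [← hv, Sylow.coe_subgroup_smul]
    exact (Subgroup.mem_smul_pointwise_iff_exists _ _ _).2 ⟨y, hy, rfl⟩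
  have hgSg : g ∈ Sg := (hSg g).2 ⟨Commute.refl g, hgpow⟩
  have hg'S : v * g * v⁻¹ ∈ (S : Subgroup G) := hconjS g (hSgS' hgSg)
  have hg'PM : PM m s (v * g * v⁻¹) := pm_conj hgPM v
  have hg'Sb : v * g * v⁻¹ ∉ Sb := by
    intro hmem
    have hcomm : Commute (v * g * v⁻¹) b := ((hSb _).1 hmem).1
    have hidxg' := E.idxpm s _ hg'PM
    have e1 := cent_eq_of_abc (E.abc b hidxb) hcomm (hidxg'.trans hidxb.symm)
    have h2 : Commute (v * x * v⁻¹) (v * g * v⁻¹) := (e1 _).2 (hxB v hxb hxidx)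
    have h3 : Commute x g := (Commute.conj_iff v).1 h2
    exact hxZ (central_of_comm E hsm hb hSb hj hG hc S hSbS hgS hgSb hxb h3)
  obtain ⟨Sg', j'', c'', hSg', hj'', hG'', hc''⟩ := E.sb s _ hg'PM
  have hSg'S : Sg' ≤ S := by
    intro y hy
    obtain ⟨hy1, k, hk⟩ := (hSg' y).1 hy
    have h5 : v * (v⁻¹ * y * v) * v⁻¹ = y := by group
    have h1 : v⁻¹ * y * v ∈ Sg := by
      rw [hSg]
      refine ⟨?_, k, ?_⟩
      · rw [← Commute.conj_iff v, h5]
        exact hy1
      · have h6 := order_conj v⁻¹ y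
        rw [inv_inv] at h6
        rw [h6, hk]
    have h2 := hconjS _ (hSgS' h1)
    rw [h5] at h2
    exact h2
  have hcardSg' : Nat.card Sg' = Nat.card Sb := by
    have h1 := sylow_card_of_eq S hG hc
    have h2 := sylow_card_of_eq S hG'' hc''
    rw [h1] at h2
    have h3 : j + 1 = j'' + 1 := Nat.pow_right_injective hs.two_le h2
    rw [hj, hj'']
    congr 1
    omega
  have hD : Sb ⊓ Sg' ≤ Sb ⊓ Subgroup.center G := by
    intro y hy
    exact ⟨hy.1, central_of_comm E hsm hb hSb hj hG hc S hSbS hg'S hg'Sb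
      ((hSb y).1 hy.1).1 ((hSg' y).1 hy.2).1⟩
  have hrel := Subgroup.relIndex_inf_le (H := Sb) (K := Sg') (L := (S : Subgroup G))
  have hr1 : Sb.relIndex S = s := by
    have h1 := card_relIndex hSbS
    rw [hcardS, mul_comm s] at h1
    exact Nat.eq_of_mul_eq_mul_left hpos h1
  have hr2 : Sg'.relIndex S = s := by
    have h1 := card_relIndex hSg'S
    rw [hcardS, hcardSg', mul_comm s] at h1
    exact Nat.eq_of_mul_eq_mul_left hpos h1
  rw [hr1, hr2] at hrel
  have hDS : Sb ⊓ Sg' ≤ S := inf_le_left.trans hSbS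
  have hcD := card_relIndex hDS
  have hT1 : Nat.card ↥(Sb ⊓ Sg') ≤ Nat.card ↥(Sb ⊓ Subgroup.center G) :=
    Subgroup.card_le_of_le hD
  have hTle : Sb ⊓ Subgroup.center G ≤ Sb := inf_le_left
  have hbSb : b ∈ Sb := (hSb b).2 ⟨Commute.refl b, hb.2.2.1⟩
  have hTne : Nat.card ↥(Sb ⊓ Subgroup.center G) ≠ Nat.card Sb := by
    intro heq
    have h1 := Subgroup.eq_of_le_of_card_ge hTle (le_of_eq heq.symm)
    have hbT : b ∈ Sb ⊓ Subgroup.center G := by
      rw [h1]
      exact hbSb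
    exact hb.2.2.2 hbT.2
  obtain ⟨t, ht, htj'⟩ : ∃ t, Nat.card ↥(Sb ⊓ Subgroup.center G) = s ^ t ∧ t ≤ j := by
    have h1 := Subgroup.card_dvd_of_le hTle
    rw [hj] at h1
    obtain ⟨t, ht1, ht2⟩ := (Nat.dvd_prime_pow hs).1 h1
    exact ⟨t, ht2, ht1⟩
  have htj : t < j := by
    rcases Nat.lt_or_ge t j with h | h
    · exact h
    · exfalso
      apply hTne
      have h1 : t = j := le_antisymm htj' h
      rw [ht, hj, h1]
  have h4 : s * Nat.card ↥(Sb ⊓ Subgroup.center G) ≤ Nat.card Sb := by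
    rw [ht, hj, ← pow_succ']
    exact Nat.pow_le_pow_right hs.pos htj
  have h5 : Nat.card Sb ≤ s * Nat.card ↥(Sb ⊓ Sg') := by
    have h6 : s * Nat.card Sb ≤ Nat.card ↥(Sb ⊓ Sg') * (s * s) := by
      rw [← hcardS, ← hcD]
      exact Nat.mul_le_mul_left _ hrel
    have hspos := hs.pos
    have h7 : s * Nat.card Sb ≤ s * (s * Nat.card ↥(Sb ⊓ Sg')) := by
      calc s * Nat.card Sb ≤ Nat.card ↥(Sb ⊓ Sg') * (s * s) := h6
        _ = s * (s * Nat.card ↥(Sb ⊓ Sg')) := by ring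
    exact Nat.le_of_mul_le_mul_left h7 hspos
  have h7 : s * Nat.card ↥(Sb ⊓ Sg') ≤ s * Nat.card ↥(Sb ⊓ Subgroup.center G) :=
    Nat.mul_le_mul_left _ hT1
  exact le_antisymm (h5.trans h7) h4

/-- (5): for two distinct primes `s`, `r` dividing `m`: `r ∣ s - 1`, so `r < s`. -/
theorem two_lt {m n : ℕ} (E : Env G m n) {s r : ℕ} (hs : s.Prime) (hr : r.Prime)
    (hsr : s ≠ r) (hsm : s ∣ m) (hrm : r ∣ m) : r < s := by
  classical
  haveI : Fact s.Prime := ⟨hs⟩
  haveI : Fact r.Prime := ⟨hr⟩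
  obtain ⟨b, hb, -⟩ := E.syl s hs hsm 1
  obtain ⟨c, hc, hcb⟩ := E.syl r hr hrm b
  have hidxb := E.idxpm s b hb
  have hidxc := E.idxpm r c hc
  have habcb := E.abc b hidxb
  have ecb : ∀ y : G, Commute y c ↔ Commute y b :=
    fun y => cent_eq_of_abc habcb hcb (hidxc.trans hidxb.symm) y
  obtain ⟨Sb, j, cc, hSb, hj, hG, hcc⟩ := E.sb s b hb
  obtain ⟨Sc, i, dd, hSc, hi, hG2, hdd⟩ := E.sb r c hc
  have hcardSb := card_sb E hsm hb hSb hj hG hcc
  obtain ⟨R, hScR⟩ := IsPGroup.exists_le_sylow (p := r) (P := Sc) (IsPGroup.of_card hi)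
  have hcardR' : Nat.card R = r ^ (i + 1) := sylow_card_of_eq R hG2 hdd
  have hcardR : Nat.card R = r * Nat.card Sc := by
    rw [hcardR', hi, pow_succ]
    ring
  have hposc : 0 < Nat.card Sc := Nat.card_pos
  obtain ⟨h, hhR, hhSc⟩ : ∃ h, h ∈ (R : Subgroup G) ∧ h ∉ Sc := by
    by_contra hcon
    push Not at hcon
    have h0 : (R : Subgroup G) ≤ Sc := hcon
    have h1 := Subgroup.card_le_of_le h0
    rw [hcardR] at h1
    have h2 := hr.two_le
    nlinarith
  obtain ⟨a, ha⟩ := spow_of_mem_sylow R hhR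
  have hhc : ¬ Commute h c := fun hh => hhSc ((hSc h).2 ⟨hh, a, ha⟩)
  have hhb : ¬ Commute h b := fun hh => hhc ((ecb h).2 hh)
  have hcSc : c ∈ Sc := (hSc c).2 ⟨Commute.refl c, hc.2.2.1⟩
  -- `S_c` is normal in `R`
  have hnorm : h * c * h⁻¹ ∈ Sc := by
    have hidx : (Sc.subgroupOf (R : Subgroup G)).index = (Nat.card (R : Subgroup G)).minFac := by
      have h1 : (Sc.subgroupOf (R : Subgroup G)).index = r := by
        have h2 := card_relIndex hScR
        rw [hcardR, mul_comm r] at h2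
        exact Nat.eq_of_mul_eq_mul_left hposc h2
      rw [h1, hcardR', Nat.Prime.pow_minFac hr (Nat.succ_ne_zero i)]
    have hN : (Sc.subgroupOf (R : Subgroup G)).Normal :=
      Subgroup.normal_of_index_eq_minFac_card hidx
    have h3 : (⟨c, hScR hcSc⟩ : ↥(R : Subgroup G)) ∈ Sc.subgroupOf (R : Subgroup G) :=
      Subgroup.mem_subgroupOf.2 hcSc
    have h4 := hN.conj_mem _ h3 ⟨h, hhR⟩
    exact Subgroup.mem_subgroupOf.1 h4
  have hc'PM : PM m r (h * c * h⁻¹) := pm_conj hc h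
  have hc'c : Commute (h * c * h⁻¹) c := ((hSc _).1 hnorm).1
  have hidxc' := E.idxpm r _ hc'PM
  have ec' : ∀ y : G, Commute y (h * c * h⁻¹) ↔ Commute y c :=
    fun y => cent_eq_of_abc (E.abc c hidxc) hc'c (hidxc'.trans hidxc.symm) y
  have hN : ∀ y : G, Commute y b → Commute (h * y * h⁻¹) b := by
    intro y hy
    have h1 : Commute y c := (ecb y).2 hy
    have h2 : Commute (h * y * h⁻¹) (h * c * h⁻¹) := (Commute.conj_iff h).2 h1
    exact (ecb _).1 ((ec' _).1 h2)
  have hmap : ∀ y : G, y ∈ Sb → h * y * h⁻¹ ∈ Sb := by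
    intro y hy
    obtain ⟨hy1, k, hk⟩ := (hSb y).1 hy
    exact (hSb _).2 ⟨hN y hy1, k, by rw [order_conj, hk]⟩
  have hfix : ∀ y : G, y ∈ Sb → h * y * h⁻¹ = y → y ∈ Subgroup.center G := by
    intro y hy hyfix
    by_contra hyZ
    obtain ⟨hy1, hy2⟩ := (hSb y).1 hy
    have hyPM : PM m s y := ⟨hs, hsm, hy2, hyZ⟩
    have hidxy := E.idxpm s y hyPM
    apply hhb
    apply (cent_eq_of_abc habcb hy1 (hidxy.trans hidxb.symm) h).1
    show h * y = y * h
    calc h * y = h * y * h⁻¹ * h := by group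
      _ = y * h := by rw [hyfix]
  -- the permutation of `S_b` induced by `h`
  obtain ⟨f, hf⟩ : ∃ f : Function.End ↥Sb, ∀ y : ↥Sb, ((f y : ↥Sb) : G) = h * (y : G) * h⁻¹ :=
    ⟨fun y => ⟨h * y.1 * h⁻¹, hmap y.1 y.2⟩, fun y => rfl⟩
  have hpow : ∀ (k : ℕ) (y : ↥Sb), (((f ^ k) y : ↥Sb) : G) = h ^ k * (y : G) * (h ^ k)⁻¹ := by
    intro k
    induction k with
    | zero =>
      intro y
      rw [pow_zero, pow_zero, one_mul, inv_one, mul_one]
      rfl
    | succ k ih =>
      intro y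
      rw [pow_succ]
      show (((f ^ k) (f y) : ↥Sb) : G) = _
      rw [ih, hf, pow_succ]
      group
  have hf1 : f ^ r ^ a = 1 := by
    funext y
    apply Subtype.ext
    rw [hpow, ← ha, pow_orderOf_eq_one, one_mul, inv_one, mul_one]
    rfl
  haveI : Fintype ↥Sb := Fintype.ofFinite _
  have hmod := Equiv.Perm.card_fixedPoints_modEq (f := f) (p := r) (n := a) hf1
  rw [Fintype.card_eq_nat_card, Fintype.card_eq_nat_card] at hmod
  have eqv : ↥(Function.fixedPoints f) ≃ ↥(Sb ⊓ Subgroup.center G) :=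
    { toFun := fun y => ⟨(y.1 : G), y.1.2, hfix y.1.1 y.1.2 (by
          have h1 : f y.1 = y.1 := y.2
          have h2 := congrArg Subtype.val h1
          rw [hf] at h2
          exact h2)⟩
      invFun := fun z => ⟨⟨z.1, z.2.1⟩, by
          show f ⟨z.1, z.2.1⟩ = ⟨z.1, z.2.1⟩
          apply Subtype.ext
          rw [hf]
          show h * z.1 * h⁻¹ = z.1
          have h1 := Subgroup.mem_center_iff.1 z.2.2 h
          rw [h1, mul_inv_cancel_right]⟩
      left_inv := fun y => rfl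
      right_inv := fun z => rfl }
  rw [Nat.card_congr eqv, hcardSb] at hmod
  -- arithmetic
  have hTdvd : Nat.card ↥(Sb ⊓ Subgroup.center G) ∣ s ^ j := by
    rw [← hj]
    exact Subgroup.card_dvd_of_le inf_le_left
  obtain ⟨t, -, ht⟩ := (Nat.dvd_prime_pow hs).1 hTdvd
  have hcop : Nat.Coprime r (Nat.card ↥(Sb ⊓ Subgroup.center G)) := by
    rw [ht]
    exact Nat.Coprime.pow_right t ((Nat.coprime_primes hr hs).2 hsr.symm)
  have hle : Nat.card ↥(Sb ⊓ Subgroup.center G) ≤ s * Nat.card ↥(Sb ⊓ Subgroup.center G) :=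
    Nat.le_mul_of_pos_left _ hs.pos
  have hdvd : r ∣ s * Nat.card ↥(Sb ⊓ Subgroup.center G) - Nat.card ↥(Sb ⊓ Subgroup.center G) :=
    (Nat.modEq_iff_dvd' hle).1 hmod.symm
  have hdvd2 : r ∣ (s - 1) * Nat.card ↥(Sb ⊓ Subgroup.center G) := by
    rw [Nat.sub_mul, one_mul]
    exact hdvd
  have hdvd3 : r ∣ s - 1 := Nat.Coprime.dvd_of_dvd_mul_right hcop hdvd2
  have h2 := hs.two_le
  have h3 := Nat.le_of_dvd (by omega) hdvd3
  omega

/-- [TWO] -/
theorem pkgTwo (hSyl : PkgSyl.{u}) (hStr : PkgStr.{u}) (hSq : PkgSq.{u}) (hAb : PkgAb.{u})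
    (hStepA : PkgStepA.{u}) (hStepB : PkgStepB.{u}) : PkgTwo.{u} := by
  intro G _ _ m n hyp hNG s r hs hr hsr hsm hrm
  have habc : ∀ w : G, idx w = m * n → AbC w :=
    fun w hw => abc_of_idx hyp hNG hSyl hStr hAb hs hr hsr hsm hrm hw
  have E : Env G m n :=
    { hyp := hyp
      syl := fun s hs hsm x => hSyl m n hyp s hs hsm x
      idxpm := fun s b hb => (hStr m n hyp hNG s b hb).1
      sb := by
        intro s' b hb
        obtain ⟨-, Sb, Ab, hSb, -, -, hcard, ⟨j, hj⟩, hcop⟩ := hStr m n hyp hNG s' b hb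
        have hs' : s'.Prime := hb.1
        have hsm' : s' ∣ m := hb.2.1
        obtain ⟨m', hm'⟩ := hb.2.1
        refine ⟨Sb, j, Nat.card Ab * m' * n, hSb, hj, ?_, ?_⟩
        · rw [← hcard, hj]
          conv_lhs => rw [hm']
          ring
        · intro hdvd
          rcases (Nat.Prime.dvd_mul hs').1 hdvd with h1 | h1
          · rcases (Nat.Prime.dvd_mul hs').1 h1 with h2 | h2
            · exact hs'.one_lt.ne' (Nat.Coprime.eq_one_of_dvd hcop.symm h2)
            · apply hSq m n hyp hNG s' hs' hsm'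
              rw [pow_two]
              conv_rhs => rw [hm']
              exact Nat.mul_dvd_mul_left s' h2
          · have hcopmn : Nat.gcd m n = 1 := hyp.2.2.2.1
            have h3 := Nat.dvd_gcd hsm' h1
            rw [hcopmn] at h3
            exact Nat.Prime.not_dvd_one hs' h3
      abc := habc
      stepA := fun w hw => by
        obtain ⟨x, r, k, -, -, -, hxw, hx⟩ := hStepA m n hyp hNG w hw (habc w hw)
        exact ⟨x, hxw, hx⟩
      stepB := fun w hw => hStepB m n hyp hNG w hw (habc w hw) }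
  have h1 := two_lt E hs hr hsr hsm hrm
  have h2 := two_lt E hr hs hsr.symm hrm hsm
  omega

end main

end Cfsg.Agent.Lib.Helper83.CS3
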